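import Cfsg.Agent.H0.SimSpec
import Cfsg.Agent.H19.Blk
import Cfsg.Agent.S0264

/-! S3694, tower SIM, slot QSL: the derived group of `GL` is quasisimple. -/

set_option autoImplicit false

open Subgroup Cfsg Matrix

namespace H6.SimQSL

theorem jobQSL : H0.Sim.JobQSL := by
  intro k K _ _ hk h
  classical
  have q : IsQuasisimple (SpecialLinearGroup (Fin k) K) :=
    H19.Blk.quasi_sl hk fun e => by
      by_contra c
      exact h ⟨e, by omega⟩
  have e : commutator (GL (Fin k) K) = (GeneralLinearGroup.det : GL (Fin k) K →* Kˣ).ker :=
    Cfsg.Agent.S0264.result k fun e => by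
      by_contra c
      push Not at c
      have h1 := Finset.card_le_card
        (show (Finset.univ : Finset K) ⊆ {0, 1} from fun a _ => by
          by_cases h0 : a = 0
          · simp [h0]
          · simp [c a h0])
      have h2 := Finset.card_le_two (a := (0 : K)) (b := 1)
      rw [Finset.card_univ] at h1
      exact h ⟨e, by omega⟩
  have r : (SpecialLinearGroup.toGL : SpecialLinearGroup (Fin k) K →* GL (Fin k) K).range =
      commutator (GL (Fin k) K) := by
    rw [e]
    ext g
    constructor
    · rintro ⟨s, rfl⟩
      exact Units.ext s.det_coe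
    · intro hg
      exact ⟨⟨g, congrArg Units.val hg⟩, Units.ext rfl⟩
  exact H14.quasi_of_mulEquiv q ((MonoidHom.ofInjective SpecialLinearGroup.toGL_injective).trans
    (MulEquiv.subgroupCongr r))

end H6.SimQSL
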