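import Cfsg.Agent.H36.SimBrSpec

/-! # S3694 (tower SIM), job SIM-BR-U: the bridge data for the unitary groups. -/

set_option autoImplicit false

open Subgroup Cfsg H98 Matrix H0.Sim H36.SimBr

namespace H6.SimBrU

variable {n q : ℕ} {F : Type} [Field F]

theorem gam_eq : Gam n F true q = GU n F q := by simp [Gam]

/-- the diagonal action on `PSU` -/
def dl (n : ℕ) (F : Type) [Field F] (q : ℕ) : Gam n F true q →* MulAut (PSU n F q) :=
  (H59.psuDiag n F q).comp (Subgroup.inclusion gam_eq.le)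

theorem dl_apply (c : Gam n F true q) :
    dl n F q c = H59.psuDiag n F q ⟨c.1, gam_eq.le c.2⟩ := rfl

theorem range_dl : (dl n F q).range = (H59.psuDiag n F q).range := by
  ext x
  constructor
  · rintro ⟨c, rfl⟩
    exact ⟨_, (dl_apply c).symm⟩
  · rintro ⟨g, rfl⟩
    exact ⟨⟨g.1, gam_eq.ge g.2⟩, rfl⟩

open Classical in
/-- the automorphism induced by a semilinear map -/
noncomputable def et (n : ℕ) (F : Type) [Field F] (q : ℕ) (j : Jm n F) : MulAut (PSU n F q) :=
  if h : j.c ∈ GU n F q then H59.psuDiag n F q ⟨j.c, h⟩ * H59.psuField n F q j.σ else 1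

theorem et_of (j : Jm n F) (h : j.c ∈ GU n F q) :
    et n F q j = H59.psuDiag n F q ⟨j.c, h⟩ * H59.psuField n F q j.σ := dif_pos h

variable [Fintype F]

theorem exists_pow (hF : Fintype.card F = q ^ 2) :
    ∃ f : ℕ, 0 < f ∧ (ringChar F).Prime ∧ q = ringChar F ^ f := by
  obtain ⟨m, hp, hm⟩ := FiniteField.card F (ringChar F)
  have h1 : q ∣ ringChar F ^ (m : ℕ) := by
    rw [← hm, hF]; exact Dvd.intro_left _ (pow_succ q 1).symm
  obtain ⟨f, -, hf⟩ := (Nat.dvd_prime_pow hp).1 h1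
  refine ⟨f, Nat.pos_of_ne_zero ?_, hp, hf⟩
  rintro rfl
  have h2 := Fintype.one_lt_card (α := F)
  rw [hF, hf] at h2
  simp at h2

theorem chr_dvd (hF : Fintype.card F = q ^ 2) (hn : 2 ≤ n) :
    ringChar F ∣ Nat.card (Inn (PSU n F q)) := by
  obtain ⟨f, hf0, hp, hq⟩ := exists_pow hF
  have hrq : ringChar F ∣ q := by rw [hq]; exact dvd_pow_self _ hf0.ne'
  have hnd : ¬ ringChar F ∣ q + 1 := fun h =>
    hp.one_lt.ne' (Nat.dvd_one.1 ((Nat.dvd_add_right hrq).1 h))
  set φ := (H59.psuDiag n F q).comp (H59.suToGU n F q) with hφ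
  have h1 : φ.range = Inn (PSU n F q) := by
    rw [H59.inn_psu_eq, ← H59.range_suToGU, hφ, MonoidHom.range_comp]
  have h2 : Nat.card φ.ker ∣ q + 1 := by
    rw [hφ, ← MonoidHom.comap_ker, H59.ker_psuDiag hF hn]
    refine (Subgroup.card_comap_dvd_of_injective _ _ H59.suToGU_injective).trans ?_
    rw [Nat.card_congr (Subgroup.centerCongr (H59.guEquiv hF n)).toEquiv,
      (H59.isHerm_uForm hF n).card_center_isom hF (by simpa using hn)]
  have h3 := φ.ker.card_mul_index
  rw [Subgroup.index_ker, h1] at h3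
  have h4 := H59.card_SU hF (n := n) (by omega)
  have h5 : ringChar F ∣ H59.ordGU q n := by
    obtain ⟨m, rfl⟩ : ∃ m, n = m + 1 := ⟨n - 1, by omega⟩
    rw [H59.ordGU_succ]
    exact ((hrq.trans (dvd_pow_self q (by omega))).mul_right _).mul_right _
  rw [← h4, ← h3] at h5
  rcases (Nat.Prime.dvd_mul hp).1 h5 with h | h
  · exact absurd h hnd
  · rcases (Nat.Prime.dvd_mul hp).1 h with h | h
    · exact absurd (h.trans h2) hnd
    · exact h

theorem instU : H36.SimBr.InstU := by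
  intro n F _ _ q P
  have hF : Fintype.card F = q ^ 2 := by simpa using P.card
  have hn2 := P.two
  have hn3 : 3 ≤ n := by
    by_contra h
    have := (P.n2 (by omega)).1
    simp at this
  have hs := P.n3 rfl
  refine ⟨dl n F q, et n F q, ⟨fun c => ?_, fun x => ?_, fun x => ?_, fun j hj c => ?_,
    fun c => ?_, ?_, chr_dvd hF hn2⟩, ?_⟩
  · rw [dl_apply, ← MonoidHom.mem_ker, H59.ker_psuDiag hF hn2]
    constructor
    · intro h
      rw [H59.center_GU_eq_range hF hn2] at h
      obtain ⟨a, ha⟩ := h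
      refine ⟨c.2, Subgroup.mem_center_iff.2 fun g => ?_⟩
      have h1 : (c : GL (Fin n) F) = GeneralLinearGroup.scalar (Fin n) a.1 :=
        (congrArg Subtype.val ha).symm
      rw [h1]
      exact (GeneralLinearGroup.scalar_commute a.1 g).symm
    · intro h
      exact Subgroup.mem_center_iff.2 fun g => Subtype.ext (Subgroup.mem_center_iff.1 h.2 g.1)
  · rw [H59.inn_psu_eq]
    constructor
    · rintro ⟨g, hg, rfl⟩
      exact ⟨⟨g.1, gam_eq.ge g.2⟩, ⟨gam_eq.ge g.2, hg⟩, rfl⟩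
    · rintro ⟨s, hs, rfl⟩
      exact ⟨⟨s.1, gam_eq.le s.2⟩, hs.2, rfl⟩
  · obtain ⟨g, τ, rfl⟩ := H59.psu_aut hF hn3 hs x
    refine ⟨⟨g.1, τ, false⟩, ⟨gam_eq.ge g.2, fun h => absurd h Bool.false_ne_true⟩, ?_⟩
    rw [et_of ⟨g.1, τ, false⟩ g.2]
  · have ha : j.a = false := by
      cases h : j.a
      · rfl
      · have := (hj.2 h).1
        simp at this
    have hc : j.c ∈ GU n F q := gam_eq.le hj.1
    set g : GU n F q := ⟨j.c, hc⟩ * H59.guField n F q j.σ ⟨c.1, gam_eq.le c.2⟩ * ⟨j.c, hc⟩⁻¹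
      with hg
    refine ⟨⟨g.1, gam_eq.ge g.2⟩, ?_, ?_⟩
    · simp only [al, ha, Bool.false_eq_true, if_false, mul_one, MulAut.mul_apply,
        MulAut.conj_apply]
      rfl
    · rw [et_of j hc, dl_apply, dl_apply]
      change _ = H59.psuDiag n F q g
      rw [hg, mul_assoc (H59.psuDiag n F q ⟨j.c, hc⟩), H59.psuField_mul_psuDiag, map_mul, map_mul,
        map_inv]
      group
  · have h1 : H59.psuField n F q (RingEquiv.refl F) = 1 := map_one (H59.psuField n F q)
    rw [et_of ⟨c.1, RingEquiv.refl F, false⟩ (gam_eq.le c.2), dl_apply]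
    simp only [h1, mul_one]
  · obtain ⟨f, -, hp, hq⟩ := exists_pow hF
    refine ⟨ringChar F, f, hp, hq, ?_⟩
    obtain ⟨π, hπ, -⟩ := H59.exists_aut_psu_proj hF hn3 hs
    have : Fact (ringChar F).Prime := ⟨hp⟩
    have h1 : Nat.card (RingAut F) = 2 * f :=
      H57.card_ringAut_finite_field (p := ringChar F) (by rw [hF, hq, ← pow_mul, mul_comm])
    rw [range_dl, ← hπ, Subgroup.index_ker, ← h1]
    have : Finite (RingAut F) := Finite.of_injective (fun σ : RingAut F => (σ : F → F))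
      DFunLike.coe_injective
    exact Nat.le_of_dvd Nat.card_pos (Subgroup.card_subgroup_dvd_card _)
  · rw [range_dl, H59.inndiagPSU_eq_range]

end H6.SimBrU
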