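import Cfsg.Agent.H58.SOSpec
import Cfsg.Agent.S0270

/-! Tower SIM (S3694), chapter OUT, job Sp: `PGSp` has a component. -/

set_option autoImplicit false

open Subgroup Cfsg H98 Matrix H0.Sim H58.SO

namespace H6.SimOutSp

variable {m : ℕ} {F : Type} [Field F]

theorem form_mulVec (A : Matrix (Fin m ⊕ Fin m) (Fin m ⊕ Fin m) F) (u v : Fin m ⊕ Fin m → F) :
    sympForm m F (A *ᵥ u) (A *ᵥ v) = u ⬝ᵥ ((Aᵀ * Matrix.J (Fin m) F * A) *ᵥ v) := by
  rw [sympForm, ← mulVec_mulVec, ← mulVec_mulVec, dotProduct_mulVec u, vecMul_transpose]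

theorem mem_sp_iff (A : Matrix (Fin m ⊕ Fin m) (Fin m ⊕ Fin m) F) :
    A ∈ Matrix.symplecticGroup (Fin m) F ↔
      ∀ u v, sympForm m F (A *ᵥ u) (A *ᵥ v) = sympForm m F u v := by
  rw [SymplecticGroup.mem_iff']
  constructor
  · intro h u v
    rw [form_mulVec, h, sympForm]
  · intro h
    ext i j
    have := h (Pi.single i 1) (Pi.single j 1)
    rw [form_mulVec, sympForm] at this
    simpa using this

/-- the inclusion of `Sp` in `GSp` -/
def psi (m : ℕ) (F : Type) [Field F] : Matrix.symplecticGroup (Fin m) F →* GSp m F :=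
  ((Matrix.symplecticGroup (Fin m) F).subtype.toHomUnits).codRestrict _ fun s =>
    ⟨1, fun u v => by
      rw [Units.val_one, one_mul]
      exact (mem_sp_iff s.1).1 s.2 u v⟩

theorem psi_injective : Function.Injective (psi m F) := fun _ _ h =>
  Subtype.ext (congrArg (fun g : GSp m F => (g.1 : Matrix (Fin m ⊕ Fin m) (Fin m ⊕ Fin m) F)) h)

theorem psi_normal : (psi m F).range.Normal := by
  constructor
  rintro _ ⟨s, rfl⟩ g
  obtain ⟨c, hc⟩ := g.2
  refine ⟨⟨(g.1 : Matrix _ _ F) * s.1 * ((g.1⁻¹ : GL (Fin m ⊕ Fin m) F) : Matrix _ _ F),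
    (mem_sp_iff _).2 fun u v => ?_⟩, Subtype.ext (Units.ext rfl)⟩
  rw [← mulVec_mulVec, ← mulVec_mulVec, ← mulVec_mulVec, ← mulVec_mulVec, hc,
    (mem_sp_iff s.1).1 s.2, ← hc, mulVec_mulVec, mulVec_mulVec, Units.mul_inv, one_mulVec,
    one_mulVec]

theorem jobSp : H58.SO.JobSp := fun m F _ _ hm hF =>
  hc_proj (GSp m F) (psi m F) psi_injective psi_normal
    (hc_simple (Cfsg.Agent.S0270.result m hm fun _ => hF))

end H6.SimOutSp
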