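/- CKS (S2193), slot R1: the rank one groups. -/
import Cfsg.Agent.H9.CKASpec
import Cfsg.Agent.H85.U3Syl

set_option autoImplicit false

namespace H6.CkR1

open Cfsg H54 H64 H9.CK

theorem HasR.quot {p N : ℕ} {G : Type} [Group G] [Finite G] (h : HasR p G N) :
    HasR p (G ⧸ Subgroup.center G) N := by
  obtain ⟨Λ, h1, h2, h3⟩ := h
  have := Λ.finΦ
  exact ⟨Λ.quotCenter, h1, h2, (Λ.T.card_map_U _ fun g _ hg => Λ.T.mem_H_of_comm (by rw [Λ.top]; trivial)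
    fun _ x _ => (Subgroup.mem_center_iff.1 ((QuotientGroup.eq_one_iff g).1 hg) x).symm).trans h3⟩

theorem card_U {p k m : ℕ} [hp : Fact p.Prime] {G : Type} [Group G] [Finite G] (Λ : LieS p G)
    (h : Nat.card G = p ^ k * m) (hm : ¬ p ∣ m) : Nat.card Λ.T.U = p ^ k := by
  have m0 : m ≠ 0 := fun e => hm (e ▸ dvd_zero p)
  rw [← Λ.coe_sylow, Sylow.card_eq_multiplicity, h,
    Nat.factorization_mul (pow_ne_zero _ hp.out.ne_zero) m0, Finsupp.add_apply,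
    hp.out.factorization_pow, Finsupp.single_eq_same, Nat.factorization_eq_zero_of_not_dvd hm, add_zero]

theorem eq_of_ht (f : (Fin 1 → ℤ) →+ ℤ) {r r' : Fin 1 → ℤ} (h : f r = 1) (h' : f r' = 1) :
    r = r' := by
  have k : ∀ r : Fin 1 → ℤ, f r = r 0 * f fun _ => 1 := fun r => by
    rw [← smul_eq_mul, ← map_zsmul]
    congr 1
    funext i
    simp [Subsingleton.elim i 0]
  rw [k] at h h'
  have h0 : f (fun _ => 1) ≠ 0 := fun e => by simp [e] at h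
  funext i
  rw [Subsingleton.elim i 0]
  exact mul_right_cancel₀ h0 (h.trans h'.symm)

theorem jobR1 : JobR1 := by
  refine ⟨fun p _ F _ _ _ q hF => HasR.quot ⟨lieSU hF 3 p, ?_, ⟨fun a b => ?_⟩, ?_⟩,
    fun F _ _ m hm hF => ?_, fun K _ _ m _ hK => ?_⟩
  · exact (lieSU hF 3 p).nonempty_of_root ⟨_, CD.isRoot_single (D := cdSU hF 3) (fdU hF 3).wt_up
      (cdGU_short hF 3) ⟨0, by omega⟩⟩
  · exact Subtype.ext (Subtype.ext (eq_of_ht (htSU hF 3).ht a.2 b.2))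
  · obtain ⟨k, -, h⟩ := H85.q_eq_pow hF p
    have h3 : q ^ 3 = p ^ (k * 3) := by rw [pow_mul, ← h]
    rw [h3]
    exact card_U _ (by rw [H85.card_SU_three hF, ← h3]) (H85.not_dvd_cofactor hF p)
  · have hT := H66.titsOf_isFin F hm hF
    let M := H66.modelB hT
    refine ⟨(H67.szSBN M hT).toLieS (H67.good_sz M hT).comm, ⟨⟨M.w, rfl⟩⟩,
      ⟨fun a b => Subtype.ext (a.2.trans b.2.symm)⟩, ?_⟩
    rw [← Nat.card_eq_fintype_card, ← M.card_Q]
    exact congrArg (fun U : Subgroup _ => Nat.card U) (H67.szSBN M hT).toGRD_U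
  · have := H68.charP_three hK
    refine ⟨(H68.isTw_G2 hK).lieS 3, ⟨(0 : Fin 1)⟩, inferInstanceAs (Subsingleton (Fin 1)), ?_⟩
    rw [hK, ← H68.card_U_G2 hK,
      ← Subgroup.card_map_of_injective (Lie.twistedG2 K (3 ^ m)).subtype_injective]
    congr 2
    ext g
    exact ⟨by rintro ⟨g, hg, rfl⟩; exact ⟨(H68.isTw_G2 hK).mem_grdK_U.1 hg, g.2⟩,
      fun hg => ⟨⟨g, hg.2⟩, (H68.isTw_G2 hK).mem_grdK_U.2 hg.1, rfl⟩⟩

end H6.CkR1
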