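/- Tower GAG (row S4841): the jobs B and C. -/
import Cfsg.Agent.H97.GaBas
import Cfsg.Agent.H57.SLCard

set_option autoImplicit false

open Subgroup H97.Ga

namespace H6.Ga

universe u v

variable {H : Type u} [Group H] [Finite H]

theorem card_of {r : ℕ} [Fact r.Prime] {L : Subgroup H} (e : L ≃* SL2 (ZMod r)) :
    Nat.card L = r * (r ^ 2 - 1) ∧ Nat.card (center L) = Nat.gcd 2 (r - 1) := by
  rw [Nat.card_congr e.toEquiv, Nat.card_congr (centerCongr e).toEquiv, H57.card_sl_two, H57.card_center_sl,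
    ZMod.card, Nat.card_zmod, Fintype.card_fin]
  exact ⟨rfl, rfl⟩

def i4 : SL2 (ZMod 5) := ⟨!![0, -1; 1, 0], by decide⟩
def x3 : SL2 (ZMod 5) := ⟨!![0, -1; 1, -1], by decide⟩

theorem ord_i4 : orderOf i4 = 4 :=
  orderOf_eq_prime_pow (p := 2) (n := 1) (by decide) (by decide)

theorem ord_x3 : orderOf x3 = 3 :=
  haveI : Fact (Nat.Prime 3) := ⟨Nat.prime_three⟩
  orderOf_eq_prime (by decide) (by decide)

theorem i4_x3 : i4 * x3 ≠ x3 * i4 := by decide

omit [Finite H] in
theorem elts {L : Subgroup H} (e : L ≃* SL2 (ZMod 5)) :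
    ∃ i ∈ L, ∃ x ∈ L, orderOf i = 4 ∧ orderOf x = 3 ∧ i * x ≠ x * i :=
  ⟨_, (e.symm i4).2, _, (e.symm x3).2, by rw [orderOf_coe, MulEquiv.orderOf_eq, ord_i4],
    by rw [orderOf_coe, MulEquiv.orderOf_eq, ord_x3], fun h => i4_x3 (e.symm.injective (by
      rw [map_mul, map_mul]; exact Subtype.ext h))⟩

theorem sq_of_mem {L : Subgroup H} (hZ : Nat.card (center L) = 2) {c : H} (h1 : c ∈ centralizer (L : Set H))
    (h2 : c ∈ L) : c ^ 2 = 1 := by
  have h : c ∈ (center L).map L.subtype := cent_inf L ▸ mem_inf.2 ⟨h1, h2⟩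
  obtain ⟨y, hy, rfl⟩ := h
  have := pow_card_eq_one' (x := (⟨y, hy⟩ : center L))
  rw [hZ] at this
  exact congrArg (fun z : center L => ((z : L) : H)) this

theorem ord_sq {c : H} (h4 : c ^ 4 = 1) (h2 : c ^ 2 ≠ 1) : orderOf (c ^ 2) = 2 :=
  orderOf_eq_prime (by rw [← pow_mul, h4]) h2

theorem not_four (hu : ∀ s t : H, orderOf s = 2 → orderOf t = 2 → s = t) {L : Subgroup H}
    (hZ : Nat.card (center L) = 2) {i : H} (hi : i ∈ L) (h4 : orderOf i = 4) :
    ¬ 4 ∣ Nat.card (centralizer (L : Set H)) := fun h => by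
  obtain ⟨Q, hQ⟩ := Sylow.exists_subgroup_card_pow_prime (G := centralizer (L : Set H)) 2 (n := 2) h
  obtain ⟨t, ht⟩ := exists_prime_orderOf_dvd_card' (G := Q) 2 (by rw [hQ]; norm_num)
  obtain ⟨c, hc⟩ : ∃ c : Q, c ∉ zpowers t := by
    by_contra! k
    have := Nat.card_zpowers t
    rw [(eq_top_iff' _).2 k, card_top, hQ, ht] at this
    norm_num at this
  have c4 : ((c : centralizer (L : Set H)) : H) ^ 4 = 1 := by
    have := pow_card_eq_one' (x := c)
    rw [hQ] at this
    exact congrArg (fun z : Q => ((z : centralizer (L : Set H)) : H)) this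
  have c2 : ((c : centralizer (L : Set H)) : H) ^ 2 ≠ 1 := fun k => by
    by_cases c1 : ((c : centralizer (L : Set H)) : H) = 1
    · exact hc ((Subtype.ext (Subtype.ext c1) : c = 1) ▸ one_mem _)
    · have := hu _ ((t : centralizer (L : Set H)) : H) (orderOf_eq_prime k c1)
        (by rw [orderOf_coe, orderOf_coe, ht])
      exact hc ((Subtype.ext (Subtype.ext this) : c = t) ▸ mem_zpowers _)
  have hcm := (c : centralizer (L : Set H)).2
  generalize ((c : centralizer (L : Set H)) : H) = d at c4 c2 hcm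
  have i4 : i ^ 4 = 1 := h4 ▸ pow_orderOf_eq_one i
  have i2 : i ^ 2 ≠ 1 := fun k => absurd (h4 ▸ orderOf_dvd_of_pow_eq_one k) (by norm_num)
  have e := hu _ _ (ord_sq c4 c2) (ord_sq i4 i2)
  have cm : Commute i d := mem_centralizer_iff.1 hcm i hi
  have s : (i * d) ^ 2 = 1 := by rw [cm.mul_pow, e, ← pow_add, i4]
  refine c2 (sq_of_mem hZ hcm ((L.mul_mem_cancel_left hi).1 ?_))
  by_cases k : i * d = 1
  · rw [k]; exact one_mem _
  · rw [hu _ _ (orderOf_eq_prime s k) (ord_sq i4 i2)]; exact pow_mem hi 2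

theorem not_three (hc : ∀ Q : Subgroup H, IsPGroup 3 Q → IsCyclic Q) {L : Subgroup H}
    (hZ : Nat.card (center L) = 2) {x : H} (hx : x ∈ L) (h3 : orderOf x = 3) :
    ¬ 3 ∣ Nat.card (centralizer (L : Set H)) := fun h => by
  classical
  have : Fact (Nat.Prime 3) := ⟨Nat.prime_three⟩
  obtain ⟨c, hc3⟩ := exists_prime_orderOf_dvd_card' (G := centralizer (L : Set H)) 3 h
  rw [← orderOf_coe] at hc3
  have hcm := c.2
  generalize (c : H) = d at hc3 hcm
  have pg : ∀ y : H, orderOf y = 3 → IsPGroup 3 (zpowers y) := fun y hy =>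
    IsPGroup.of_card (n := 1) (by rw [Nat.card_zpowers, hy, pow_one])
  have cy := hc _ (IsPGroup.to_sup_of_normal_right' (pg d hc3) (pg x h3) ((zpowers_le.2 hcm).trans
    ((centralizer_le (SetLike.coe_subset_coe.2 (zpowers_le.2 hx))).trans (centralizer_le_normalizer _))))
  have dL : d ∉ L := fun k => absurd (hc3 ▸ orderOf_dvd_of_pow_eq_one (sq_of_mem hZ hcm k)) (by norm_num)
  have := Fintype.ofFinite (zpowers d ⊔ zpowers x : Subgroup H)
  have le := IsCyclic.card_pow_eq_one_le (α := (zpowers d ⊔ zpowers x : Subgroup H)) (n := 3) (by norm_num)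
  have md : d ∈ zpowers d ⊔ zpowers x := mem_sup_left (mem_zpowers d)
  have mx : x ∈ zpowers d ⊔ zpowers x := mem_sup_right (mem_zpowers x)
  have x3 : x ^ 3 = 1 := h3 ▸ pow_orderOf_eq_one x
  have x1 : x ≠ 1 := fun k => by rw [k, orderOf_one] at h3; omega
  have x2 : x ^ 2 ≠ 1 := fun k => absurd (h3 ▸ orderOf_dvd_of_pow_eq_one k) (by norm_num)
  have sub : ({⟨d, md⟩, 1, ⟨x, mx⟩, ⟨x, mx⟩ ^ 2} : Finset (zpowers d ⊔ zpowers x : Subgroup H)) ⊆
      Finset.univ.filter fun a => a ^ 3 = 1 := by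
    intro a ha
    simp only [Finset.mem_insert, Finset.mem_singleton] at ha
    rw [Finset.mem_filter]
    refine ⟨Finset.mem_univ _, ?_⟩
    rcases ha with rfl | rfl | rfl | rfl
    · exact Subtype.ext (hc3 ▸ pow_orderOf_eq_one d)
    · exact one_pow _
    · exact Subtype.ext x3
    · exact Subtype.ext (by rw [← pow_mul, mul_comm, pow_mul]; simp [x3])
  have := (Finset.card_le_card sub).trans le
  rw [Finset.card_insert_of_notMem, Finset.card_insert_of_notMem, Finset.card_pair] at this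
  · omega
  · exact fun k => x1 (by simpa [pow_two] using congrArg Subtype.val k)
  · simp only [Finset.mem_insert, Finset.mem_singleton, not_or]
    exact ⟨fun k => x1 (congrArg Subtype.val k).symm, fun k => x2 (congrArg Subtype.val k).symm⟩
  · simp only [Finset.mem_insert, Finset.mem_singleton, not_or]
    exact ⟨fun k => dL ((show d = 1 from congrArg Subtype.val k) ▸ L.one_mem),
      fun k => dL ((show d = x from congrArg Subtype.val k) ▸ hx),
      fun k => dL ((show d = x ^ 2 from congrArg Subtype.val k) ▸ L.pow_mem hx 2)⟩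

/-- over a prime field, `L C(L)` has index at most two -/
theorem idx_two (hO : JobOut.{u}) {r : ℕ} [hr : Fact r.Prime] {L : Subgroup H} [L.Normal] (e : L ≃* SL2 (ZMod r)) :
    (L ⊔ centralizer (L : Set H)).index ∣ 2 := by
  obtain ⟨K, -, -, -, h, k⟩ := hO (ZMod r) L ⟨e⟩
  rwa [k (by rw [ZMod.card]; exact hr.out), relIndex_top_right] at h

theorem cent_index (L : Subgroup H) [L.Normal] : (centralizer (L : Set H)).index * Nat.card (center L) =
    Nat.card L * (L ⊔ centralizer (L : Set H)).index := by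
  have h : (centralizer (L : Set H)).subgroupOf L = center L := by
    ext x
    rw [mem_subgroupOf, mem_centralizer_iff, mem_center_iff]
    exact ⟨fun h g => Subtype.ext (h g g.2), fun h g hg => congrArg Subtype.val (h ⟨g, hg⟩)⟩
  rw [← relIndex_mul_index (le_sup_right : _ ≤ L ⊔ centralizer (L : Set H)), relIndex_sup_right, relIndex, h,
    mul_right_comm, index_mul_card]

theorem sup_cent {L : Subgroup H} (h : centralizer (L : Set H) = (center L).map L.subtype) :
    L ⊔ centralizer (L : Set H) = L := sup_eq_left.2 (h ▸ map_subtype_le _)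

theorem jobB (hO : JobOut.{u}) : JobB.{u, v} := by
  intro H _ _ V _ _ _ _ ρ h L _
  have : Fact (Nat.Prime 3) := ⟨Nat.prime_three⟩
  have : Fact (Nat.Prime 5) := ⟨by norm_num⟩
  have : Fact (Nat.Prime 13) := ⟨by norm_num⟩
  obtain ⟨P⟩ : Nonempty (Sylow 3 H) := inferInstance
  obtain ⟨k, hk⟩ := IsPGroup.iff_card.1 P.isPGroup'
  have hH := (P : Subgroup H).index_mul_card
  have hL := L.index_mul_card
  rw [h.index_sylow, hk] at hH
  refine ⟨fun ⟨e⟩ hV => ?_, fun ⟨e⟩ hV => ?_⟩
  · obtain ⟨c1, c2⟩ := card_of e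
    norm_num at c1 c2
    obtain ⟨i, hi, x, hx, i4, -, -⟩ := elts e
    have hu := fun s t => h.inv_unique (by norm_num) (s := s) (t := t)
    have n4 := not_four hu c2 hi i4
    have ci := cent_index L
    have hC := (centralizer (L : Set H)).index_mul_card
    rw [hV] at hH
    rw [c1] at hL
    rw [c1, c2] at ci
    have d : Nat.card (centralizer (L : Set H)) ∣ 2 * 3 ^ k := by
      have e1 : Nat.card (centralizer (L : Set H)) * (3 * (L ⊔ centralizer (L : Set H)).index) = 4 * 3 ^ k := by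
        nlinarith
      rcases Nat.even_or_odd (3 * (L ⊔ centralizer (L : Set H)).index) with ⟨t, ht⟩ | ho
      · exact ⟨t, by rw [ht] at e1; linarith⟩
      · exact absurd ((Nat.Coprime.pow_left 2 (Nat.coprime_two_left.2 ho)).dvd_of_dvd_mul_right
          (e1 ▸ dvd_mul_right 4 _)) n4
    have hc := cent_eq_center L (cent_eq h.core _ d) c2
    have i2 := idx_two hO e
    rw [sup_cent hc] at i2
    have hi2 : L.index = 2 := by
      rcases (Nat.dvd_prime Nat.prime_two).1 i2 with k | k
      · omega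
      · exact k
    refine ⟨L, ‹_›, hi2, ⟨e⟩, hc, fun K hK => ?_⟩
    obtain ⟨t, ht⟩ := exists_prime_orderOf_dvd_card' (G := K) 2 (by rw [← hK.symm.index_eq_card, hi2])
    have i4' : i ^ 4 = 1 := i4 ▸ pow_orderOf_eq_one i
    have i2' : i ^ 2 ≠ 1 := fun k => absurd (i4 ▸ orderOf_dvd_of_pow_eq_one k) (by norm_num)
    have e1 := hu _ _ (ord_sq i4' i2') ((orderOf_coe t).trans ht)
    exact i2' (disjoint_def.1 hK.disjoint (pow_mem hi 2) (e1 ▸ t.2))
  · obtain ⟨c1, c2⟩ := card_of e
    norm_num at c1 c2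
    rw [hV] at hH
    rw [c1] at hL
    have d : L.index ∣ 3 ^ k := ⟨3, by omega⟩
    have hc := cent_eq_center L (cent_eq h.core _ ((card_cent_dvd L).trans (by rw [c2]; exact Nat.mul_dvd_mul_left _ d))) c2
    have i2 := idx_two hO e
    rw [sup_cent hc] at i2
    have := index_eq_one.1 (Nat.eq_one_of_dvd_coprimes (Nat.Coprime.pow_right k (by norm_num)) i2 d)
    subst this
    exact ⟨topEquiv.symm.trans e⟩

theorem prod_iso {S : Type*} [Group S] {L : Subgroup H} (e : L ≃* S) {r : ℕ} [Fact r.Prime]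
    (hr : (Nat.card L).Coprime r) (hH : Nat.card H = Nat.card L * r)
    (hC : r ∣ Nat.card (centralizer (L : Set H))) : Nonempty (H ≃* S × Multiplicative (ZMod r)) := by
  obtain ⟨c, hc⟩ := exists_prime_orderOf_dvd_card' (G := centralizer (L : Set H)) r hC
  have hK : Nat.card (zpowers (c : H)) = r := by rw [Nat.card_zpowers, orderOf_coe, hc]
  let f : L × zpowers (c : H) →* H := L.subtype.noncommCoprod (zpowers (c : H)).subtype fun a b =>
    mem_centralizer_iff.1 (zpowers_le.2 c.2 b.2) a a.2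
  have i : Function.Injective f := (injective_iff_map_eq_one f).2 fun ⟨a, b⟩ hab => by
    have h1 : (a : H) * b = 1 := hab
    have h2 : (b : H) = 1 := disjoint_def.1 (disjoint_of_coprime_natCard (hK.symm ▸ hr))
      (eq_inv_of_mul_eq_one_right h1 ▸ L.inv_mem a.2) b.2
    rw [h2, mul_one] at h1
    exact Prod.ext (Subtype.ext h1) (Subtype.ext h2)
  exact ⟨(MulEquiv.ofBijective f ((Nat.bijective_iff_injective_and_card f).2
    ⟨i, by rw [Nat.card_prod, hK, hH]⟩)).symm.trans
    (e.prodCongr (mulEquivOfPrimeCardEq hK (by simp)))⟩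

theorem jobC (hO : JobOut.{u}) (hC2 : JobC2.{u, v}) : JobC.{u, v} := by
  rintro p hp H _ _ V _ _ _ _ ρ h7 h L _ ⟨e⟩
  have : Fact (Nat.Prime 3) := ⟨Nat.prime_three⟩
  have : Fact (Nat.Prime 5) := ⟨by norm_num⟩
  have : Fact (Nat.Prime 7) := ⟨by norm_num⟩
  have : Fact (Nat.Prime 29) := ⟨by norm_num⟩
  obtain ⟨c1, c2⟩ := card_of e
  norm_num at c1 c2
  obtain ⟨i, hi, x, hx, -, x3, ix⟩ := elts e
  have ci := cent_index L
  have i2 := idx_two hO e
  rw [c1, c2] at ci
  have d : (centralizer (L : Set H)).index ∣ 120 := by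
    rcases (Nat.dvd_prime Nat.prime_two).1 i2 with k | k <;> rw [k] at ci
    · exact ⟨2, by omega⟩
    · exact ⟨1, by omega⟩
  have m : ∀ y ∈ L, y ∈ centralizer ((centralizer (L : Set H) : Subgroup H) : Set H) := fun y hy =>
    mem_centralizer_iff.2 fun g hg => (mem_centralizer_iff.1 hg y hy).symm
  obtain ⟨hV, hpC, hp1⟩ := hC2 p ρ h7 h.inj h.tr _ d ⟨i, m i hi, x, m x hx, ix⟩
  have hC := (centralizer (L : Set H)).index_mul_card
  have hL := L.index_mul_card
  have n3 := not_three (fun Q hQ => h.sr.fp.isCyclic (by norm_num) (by omega) hQ) c2 hx x3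
  have np : ¬ p ∣ Nat.card H := fun k => by
    rcases (Nat.Prime.dvd_mul hp.out).1 (hC ▸ k) with k | k
    · have k' : p ∣ 2 ^ 3 * (3 * 5) := k.trans d
      rcases (Nat.Prime.dvd_mul hp.out).1 k' with k | k
      · have := Nat.le_of_dvd two_pos (hp.out.dvd_of_dvd_pow k); omega
      · rcases (Nat.Prime.dvd_mul hp.out).1 k with k | k <;>
        · have := Nat.le_of_dvd (by norm_num) k; omega
    · exact hpC k
  obtain ⟨P⟩ : Nonempty (Sylow p H) := inferInstance
  have hH := (P : Subgroup H).index_mul_card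
  rw [h.index_sylow, hV, P.isPGroup'.card_eq_or_dvd.resolve_right fun k => np (k.trans (card_subgroup_dvd_card _)),
    mul_one] at hH
  have d2 : 120 ∣ p ^ 2 - 1 := by rw [hH, ← c1]; exact card_subgroup_dvd_card L
  have le : p + 1 ≤ 120 := Nat.le_of_dvd (by norm_num) hp1
  have pp := hp.out
  have hp4 : p = 11 ∨ p = 19 ∨ p = 29 ∨ p = 59 := by
    have le' : p ≤ 119 := by omega
    clear * - h7 le' pp d2 hp1
    interval_cases p <;> first | omega | norm_num at pp
  have j := (Nat.dvd_prime Nat.prime_two).1 i2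
  rw [c1] at hL
  rcases hp4 with rfl | rfl | rfl | rfl
  · have : L = ⊤ := index_eq_one.1 (by omega)
    subst this
    exact Or.inl ⟨rfl, ⟨topEquiv.symm.trans e⟩⟩
  · refine absurd ?_ n3
    rcases j with j | j <;> rw [j] at ci
    · rw [show (centralizer (L : Set H)).index = 60 by omega] at hC; omega
    · rw [show (centralizer (L : Set H)).index = 120 by omega] at hC; omega
  · refine Or.inr (Or.inl ⟨rfl, prod_iso e (by rw [c1]; norm_num) (by omega) ?_⟩)
    rcases j with j | j <;> rw [j] at ci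
    · rw [show (centralizer (L : Set H)).index = 60 by omega] at hC; omega
    · rw [show (centralizer (L : Set H)).index = 120 by omega] at hC; omega
  · refine Or.inr (Or.inr ⟨rfl, prod_iso e (by rw [c1]; norm_num) (by omega) ?_⟩)
    rcases j with j | j <;> rw [j] at ci
    · rw [show (centralizer (L : Set H)).index = 60 by omega] at hC; omega
    · rw [show (centralizer (L : Set H)).index = 120 by omega] at hC; omega

end H6.Ga
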