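/- Tower RV (row S5207): the jobs Aut and Card. -/
import Cfsg.Agent.H9.RVKit

set_option autoImplicit false
set_option linter.unusedSectionVars false

open Matrix Subgroup Cfsg H92 H9.RV

namespace H6.RV

variable {p : ℕ} [hp : Fact p.Prime]

theorem gen_eq (u : He p) : u = (⟨![1, 0], 0⟩ : He p) ^ (u.v 0).val * (⟨![0, 1], 0⟩ : He p) ^ (u.v 1).val *
    (⟨0, 1⟩ : He p) ^ (u.c - u.v 0 * u.v 1).val := by
  simp only [pow_eq, ZMod.natCast_zmod_val]
  refine He.ext (funext fun i => ?_) ?_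
  · fin_cases i <;> simp
  · simp [om]

theorem hom_ext {G : Type*} [Group G] {f g : He p →* G} (h1 : f ⟨![1, 0], 0⟩ = g ⟨![1, 0], 0⟩)
    (h2 : f ⟨![0, 1], 0⟩ = g ⟨![0, 1], 0⟩) (h3 : f ⟨0, 1⟩ = g ⟨0, 1⟩) (u : He p) : f u = g u := by
  rw [gen_eq u]
  simp only [map_mul, map_pow, h1, h2, h3]

theorem jobAut : JobAut := by
  intro p _ h2 θ
  have t2 := two_ne h2
  obtain ⟨x, hx⟩ : ∃ x, x = θ ⟨![1, 0], 0⟩ := ⟨_, rfl⟩
  obtain ⟨y, hy⟩ : ∃ y, y = θ ⟨![0, 1], 0⟩ := ⟨_, rfl⟩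
  have hz : θ ⟨0, 1⟩ ∈ ZZ p := aut_mem_ZZ h2 θ rfl
  obtain ⟨d, hd0⟩ : ∃ d, d = (θ ⟨0, 1⟩).c := ⟨_, rfl⟩
  have ez : θ ⟨0, 1⟩ = ⟨0, d⟩ := He.ext hz hd0.symm
  have hd : d ≠ 0 := fun h => by
    have e : θ ⟨0, 1⟩ = θ 1 := by rw [ez, h, map_one]; rfl
    have := congrArg He.c (θ.injective e)
    simp at this
  have hom : om x.v y.v = d := by
    have e : (⟨![1, 0], 0⟩ : He p) * ⟨![0, 1], 0⟩ = ⟨![0, 1], 0⟩ * ⟨![1, 0], 0⟩ * (⟨0, 1⟩ * ⟨0, 1⟩) :=
      He.ext (by simp [add_comm]) (by simp [om])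
    have e' := congrArg (fun u => (θ u).c) e
    simp only [map_mul, ← hx, ← hy, ez, He.mul_c, He.mul_v, om_zero_right, add_zero, om_comm x.v y.v] at e'
    exact mul_left_cancel₀ t2 (by linear_combination e')
  obtain ⟨A, a1, a2, a3⟩ := exists_cols (v := x.v) (w := y.v) (hom ▸ hd)
  refine ⟨⟨(y.c / (2 * d)) • x.v + (-x.c / (2 * d)) • y.v, 0⟩, A, fun u => ?_⟩
  refine hom_ext (f := θ.toMonoidHom) (g := (MulAut.conj
    (⟨(y.c / (2 * d)) • x.v + (-x.c / (2 * d)) • y.v, 0⟩ : He p) * sd A : MulAut (He p)).toMonoidHom) ?_ ?_ ?_ u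
  · show θ _ = _ * sd A _ * _
    rw [← hx, conj_eq]
    refine He.ext a1.symm ?_
    simp only [sd_v, sd_c, a1, om_add_left, om_smul_left, om_self, om_comm x.v y.v, hom]
    field_simp; ring
  · show θ _ = _ * sd A _ * _
    rw [← hy, conj_eq]
    refine He.ext a2.symm ?_
    simp only [sd_v, sd_c, a2, om_add_left, om_smul_left, om_self, hom]
    field_simp; ring
  · show θ _ = _ * sd A _ * _
    rw [ez, conj_eq]
    refine He.ext (by simp) ?_
    simp [a3, hom]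

theorem jobCard : JobCard := by
  intro hA p _ h2 G _ _ ι hι
  obtain ⟨N, hN⟩ : ∃ N, N = normalizer (ι.range : Set G) := ⟨_, rfl⟩
  have key : ∀ g : N, ∃ (s : He p) (A : G2 p), ∀ u, (g : G) * ι u * (g : G)⁻¹ = ι (s * sd A u * s⁻¹) := by
    rintro ⟨g, hg⟩
    have hg' : ∀ x, x ∈ ι.range ↔ g * x * g⁻¹ ∈ ι.range := by
      rw [hN] at hg; exact mem_normalizer_iff.1 hg
    choose f hf using fun u => MonoidHom.mem_range.1 ((hg' (ι u)).1 ⟨u, rfl⟩)
    let φ : He p →* He p := MonoidHom.mk' f fun a b => hι (by rw [map_mul, hf, hf, hf, map_mul]; group)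
    have i : Function.Injective φ := fun a b e => hι (by
      have e' : ι (f a) = ι (f b) := congrArg ι e
      rw [hf, hf] at e'
      simpa using e')
    obtain ⟨s, A, h⟩ := hA p h2 (MulEquiv.ofBijective φ (Finite.injective_iff_bijective.1 i))
    exact ⟨s, A, fun u => by rw [← h, ← hf]; rfl⟩
  choose s A hsA using key
  have uniq : ∀ (g : N) (t : He p) (B : G2 p), (∀ u, (g : G) * ι u * (g : G)⁻¹ = ι (t * sd B u * t⁻¹)) → A g = B :=
    fun g t B h => G2.ext_act fun v => by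
      have := congrArg He.v (hι ((hsA g ⟨v, 0⟩).symm.trans (h ⟨v, 0⟩)))
      simpa using this
  let ρ : N →* G2 p := MonoidHom.mk' A fun g h => uniq _ (s g * sd (A g) (s h)) _ fun u => by
    rw [coe_mul, show (g : G) * h * ι u * ((g : G) * h)⁻¹ = g * (h * ι u * (h : G)⁻¹) * (g : G)⁻¹ by group,
      hsA h, hsA g]
    congr 1
    simp only [map_mul, map_inv, MulAut.mul_apply]
    group
  have hr : ρ.range = WG ι := by
    ext B
    refine ⟨fun ⟨g, hg⟩ => ⟨(ι (s g))⁻¹ * g, fun u => ?_⟩, fun ⟨g, hg⟩ => ?_⟩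
    · rw [show (ι (s g))⁻¹ * g * ι u * ((ι (s g))⁻¹ * g)⁻¹ = (ι (s g))⁻¹ * (g * ι u * (g : G)⁻¹) * ι (s g) by group,
        hsA, ← hg]
      simp only [map_mul, map_inv]
      show _ = ι (sd (A g) u)
      group
    · have hg' : g ∈ N := by
        rw [hN]
        refine mem_normalizer_iff.2 fun x => ⟨?_, ?_⟩
        · rintro ⟨u, rfl⟩; exact ⟨_, (hg u).symm⟩
        · rintro ⟨u, hu⟩
          refine ⟨sd B⁻¹ u, ?_⟩
          have := hg (sd B⁻¹ u)
          rw [show sd B (sd B⁻¹ u) = u by simp, hu] at this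
          simpa using this
      exact ⟨⟨g, hg'⟩, uniq _ 1 _ fun u => by simpa using hg u⟩
  have hk : ρ.ker = (ι.range ⊔ centralizer (ι.range : Set G)).subgroupOf N := by
    apply le_antisymm
    · intro g hg
      have hg' : A g = 1 := hg
      rw [mem_subgroupOf, show (g : G) = ι (s g) * ((ι (s g))⁻¹ * g) by group]
      refine mul_mem (mem_sup_left ⟨_, rfl⟩) (mem_sup_right (mem_centralizer_iff.2 ?_))
      rintro _ ⟨u, rfl⟩
      have := hsA g u
      rw [hg'] at this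
      simp only [map_one, MulAut.one_apply, map_mul, map_inv] at this
      calc ι u * ((ι (s g))⁻¹ * g) = (ι (s g))⁻¹ * (ι (s g) * ι u * (ι (s g))⁻¹) * g := by group
        _ = _ := by rw [← this]; group
    · have : ι.range ⊔ centralizer (ι.range : Set G) ≤ ρ.ker.map N.subtype := by
        refine sup_le ?_ fun g hg => ?_
        · rintro _ ⟨t, rfl⟩
          exact ⟨⟨ι t, hN ▸ le_normalizer ⟨t, rfl⟩⟩, uniq _ t 1 fun u => by simp, rfl⟩
        · refine ⟨⟨g, hN ▸ centralizer_le_normalizer _ hg⟩, uniq _ 1 1 fun u => ?_, rfl⟩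
          simp [← mem_centralizer_iff.1 hg (ι u) ⟨u, rfl⟩]
      intro g hg
      obtain ⟨h, hh, e⟩ := this hg
      rwa [← Subtype.ext e]
  rw [← hr, ← index_ker, hk, ← hN]; rfl

end H6.RV
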