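/- Tower RV (row S5207): the jobs Iso and Two. -/
import Cfsg.Agent.H9.RVKit

set_option autoImplicit false
set_option linter.unusedSectionVars false

open Matrix Subgroup Cfsg H92 H9.RV
open scoped commutatorElement

universe u

namespace H6.RV

theorem pow_comm_aux {P : Type*} [Group P] {x y w : P} (hw : ∀ g, g * w = w * g) (h : x * y = y * x * w)
    (m n : ℕ) : x ^ m * y ^ n = y ^ n * x ^ m * w ^ (m * n) := by
  have c : ∀ (g : P) (k : ℕ), g * w ^ k = w ^ k * g := fun g k => (Commute.pow_right (hw g) k).eq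
  have h1 : ∀ n : ℕ, x * y ^ n = y ^ n * x * w ^ n := fun n => by
    induction n with
    | zero => simp
    | succ n ih =>
      rw [pow_succ, ← mul_assoc, ih, mul_assoc (y ^ n * x), ← c, ← mul_assoc, mul_assoc (y ^ n) x, h, pow_succ' w]
      simp only [mul_assoc]
  induction m with
  | zero => simp
  | succ m ih =>
    rw [pow_succ', mul_assoc, ih, ← mul_assoc, ← mul_assoc, h1, mul_assoc (y ^ n * x), ← c, add_mul, one_mul,
      add_comm, pow_add]
    simp only [mul_assoc]

theorem jobIso : JobIso.{u} := by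
  intro p hp h2 P _ _ hE hcard hexp
  have pp : p.Prime := hp.out
  have hpw : ∀ g : P, g ^ p = 1 := fun g => hexp ▸ Monoid.pow_exponent_eq_one g
  have hn : ∀ (g : P) (n : ℕ), g ^ (n : ZMod p).val = g ^ n := fun g n => by
    rw [ZMod.val_natCast, ← pow_eq_pow_mod _ (hpw g)]
  have hadd : ∀ (g : P) (s t : ZMod p), g ^ (s + t).val = g ^ s.val * g ^ t.val := fun g s t => by
    rw [← pow_add, ← hn g (s.val + t.val)]; simp
  obtain ⟨x, y, hxy⟩ : ∃ x y : P, ⁅x, y⁆ ≠ 1 := by
    by_contra! h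
    have h1 : commutator P = ⊥ := by
      rw [commutator_eq_closure, closure_eq_bot_iff]
      rintro _ ⟨a, b, rfl⟩
      exact h a b
    have h3 := hE.2
    rw [← hE.1.2.2, h1, card_bot] at h3
    exact pp.one_lt.ne h3
  have hw : ∀ g, g * ⁅x, y⁆ = ⁅x, y⁆ * g := mem_center_iff.1
    (hE.1.2.2 ▸ commutator_mem_commutator (mem_top x) (mem_top y))
  obtain ⟨k, hk⟩ := pp.odd_of_ne_two h2
  obtain ⟨z, hz⟩ : ∃ z, z = ⁅x, y⁆ ^ (k + 1) := ⟨_, rfl⟩
  have z2 : z ^ 2 = ⁅x, y⁆ := by
    rw [hz, ← pow_mul, show (k + 1) * 2 = p + 1 by omega, pow_succ, hpw, one_mul]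
  have zc : ∀ (g : P) (n : ℕ), g * z ^ n = z ^ n * g := fun g n => by
    rw [hz, ← pow_mul]; exact (Commute.pow_right (hw g) _).eq
  have hc : ∀ a b : ZMod p, x ^ a.val * y ^ b.val = y ^ b.val * x ^ a.val * z ^ (2 * a * b).val := fun a b => by
    rw [pow_comm_aux hw (show x * y = y * x * ⁅x, y⁆ by rw [hw, commutatorElement_def]; group), ← z2, ← pow_mul,
      ← hn z]
    simp [mul_assoc]
  have z0 : ∀ e : ZMod p, z ^ e.val = 1 → e = 0 := fun e he => by
    have ho : orderOf z = p := orderOf_eq_prime (hpw z) fun h => hxy (by rw [← z2, h, one_pow])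
    have := orderOf_dvd_of_pow_eq_one he
    rw [ho] at this
    rw [← ZMod.natCast_zmod_val e, ZMod.natCast_eq_zero_iff]; exact this
  let ι : He p →* P := MonoidHom.mk'
    (fun u => y ^ (u.v 1).val * x ^ (u.v 0).val * z ^ (u.c + u.v 0 * u.v 1).val) fun u t => by
      have e : (u * t).c + (u * t).v 0 * (u * t).v 1 =
          2 * u.v 0 * t.v 1 + ((u.c + u.v 0 * u.v 1) + (t.c + t.v 0 * t.v 1)) := by simp [om]; ring
      rw [e, hadd z (2 * u.v 0 * t.v 1), hadd z (u.c + u.v 0 * u.v 1), He.mul_v, Pi.add_apply, Pi.add_apply,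
        hadd x, hadd y]
      generalize (u.c + u.v 0 * u.v 1).val = m, (t.c + t.v 0 * t.v 1).val = n
      calc _ = y ^ (u.v 1).val * (y ^ (t.v 1).val * x ^ (u.v 0).val * (x ^ (t.v 0).val *
            z ^ (2 * u.v 0 * t.v 1).val)) * z ^ m * z ^ n := by simp only [mul_assoc]
        _ = y ^ (u.v 1).val * (x ^ (u.v 0).val * y ^ (t.v 1).val * x ^ (t.v 0).val) * z ^ m * z ^ n := by
            rw [zc (x ^ (t.v 0).val), hc]; simp only [mul_assoc]
        _ = y ^ (u.v 1).val * x ^ (u.v 0).val * ((y ^ (t.v 1).val * x ^ (t.v 0).val) * z ^ m) * z ^ n := by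
            simp only [mul_assoc]
        _ = _ := by rw [zc (y ^ (t.v 1).val * x ^ (t.v 0).val)]; simp only [mul_assoc]
  have i0 : ∀ e : ZMod p, ι ⟨0, e⟩ = z ^ e.val := fun e => by simp [ι]
  have inj : Function.Injective ι := (injective_iff_map_eq_one ι).2 fun u hu => by
    have hv : u.v = 0 := by
      by_contra hv
      obtain ⟨s, hs⟩ := exists_om hv 1
      have e : (⟨s, 0⟩ : He p) * u * ⟨s, 0⟩⁻¹ * u⁻¹ = ⟨0, 2⟩ := by
        rw [conj_eq]; exact He.ext (by simp) (by simp only [He.mul_c, He.inv_c, He.inv_v, hs]; simp [om]; ring)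
      have := i0 2
      rw [← e] at this
      simp only [map_mul, map_inv, hu, mul_one, mul_inv_cancel, inv_one] at this
      exact two_ne h2 (z0 _ this.symm)
    have e : u = ⟨0, u.c⟩ := He.ext hv rfl
    rw [e, i0] at hu
    exact He.ext hv (z0 _ hu)
  exact ⟨(MulEquiv.ofBijective ι ((Nat.bijective_iff_injective_and_card ι).2 ⟨inj, by rw [card_He, hcard]⟩)).symm⟩

theorem jobTwo : JobTwo := by
  rintro p hp h2 W R ad ⟨v, hv, w, hw, hvw⟩ h3
  obtain ⟨C, c1, c2, -⟩ := exists_cols hvw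
  obtain ⟨W', R', h1, hR⟩ := exists_cj C⁻¹ W R
  have cj : Cj W R W' R' := ⟨_, h1, hR⟩
  have ad' := cj.adm ad
  have n3 : ¬ Thr R' := fun h => h3 (cj.symm.thr h)
  have e1 : ![1, 0] ∈ R' := by have := (hR v).1 hv; rwa [← c1, act_inv_act] at this
  have e2 : ![0, 1] ∈ R' := by have := (hR w).1 hw; rwa [← c2, act_inv_act] at this
  have eR : R' = Rax p := by
    ext u
    refine ⟨fun hu => ⟨ad'.ne u hu, ?_⟩, fun ⟨hu, h⟩ => ?_⟩
    · by_contra h
      obtain ⟨a, b⟩ := mul_ne_zero_iff.1 h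
      exact n3 ⟨_, e1, _, e2, u, hu, by simp [om], by simpa [om] using b, by simpa [om] using a⟩
    · rcases mul_eq_zero.1 h with h | h
      · have : u = u 1 • ![0, 1] := funext fun i => by fin_cases i <;> simp [h]
        rw [this]
        exact ad'.smul _ e2 _ fun e => hu (by rw [this, e, zero_smul])
      · have : u = u 0 • ![1, 0] := funext fun i => by fin_cases i <;> simp [h]
        rw [this]
        exact ad'.smul _ e1 _ fun e => hu (by rw [this, e, zero_smul])
  have mon : ∀ B ∈ W', (B 0 1 = 0 ∧ B 1 0 = 0) ∨ (B 0 0 = 0 ∧ B 1 1 = 0) := fun B hB => by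
    have a := ad'.inv B hB _ e1
    have b := ad'.inv B hB _ e2
    rw [eR] at a b
    have a' := a.2
    have b' := b.2
    simp only [act_apply0, act_apply1] at a' b'
    have d := dt_ne B
    rw [dt_eq] at d
    simp only [cons_val_zero, cons_val_one, mul_one, mul_zero, add_zero, zero_add, mul_eq_zero,
      cons_val_fin_one] at a' b'
    rcases a' with a' | a' <;> rcases b' with b' | b'
    · simp [a', b'] at d
    · exact Or.inr ⟨a', b'⟩
    · exact Or.inl ⟨b', a'⟩
    · simp [a', b'] at d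
  refine ⟨W', ⟨mon, fun a ha => ?_, fun a ha => ?_⟩, eR ▸ cj⟩
  · obtain ⟨B, hB, b1, b2⟩ := ad'.tor _ e1 a ha
    have x0 := congrFun b1 0
    have x1 := congrFun b1 1
    simp only [act_apply0, act_apply1] at x0 x1
    simp at x0 x1
    rw [dt_eq, x0, x1] at b2
    have x2 : B 0 1 = 0 := (mon B hB).elim (·.1) fun h => absurd (x0.symm.trans h.1) (inv_ne_zero ha)
    have x3 : B 1 1 = a ^ 2 := by field_simp at b2; linear_combination b2
    refine ⟨B, hB, Matrix.ext fun i j => ?_⟩
    fin_cases i <;> fin_cases j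
    exacts [x0, x2, x1, x3]
  · obtain ⟨B, hB, b1, b2⟩ := ad'.tor _ e2 a ha
    have x0 := congrFun b1 0
    have x1 := congrFun b1 1
    simp only [act_apply0, act_apply1] at x0 x1
    simp at x0 x1
    rw [dt_eq, x0, x1] at b2
    have x2 : B 1 0 = 0 := (mon B hB).elim (·.2) fun h => absurd (x1.symm.trans h.2) (inv_ne_zero ha)
    have x3 : B 0 0 = a ^ 2 := by field_simp at b2; linear_combination b2
    refine ⟨B, hB, Matrix.ext fun i j => ?_⟩
    fin_cases i <;> fin_cases j
    exacts [x3, x0, x2, x1]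

end H6.RV
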